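import Cfsg.Agent.Stn.AutFin

/-!
# Strongly regular graphs with parameters (100, 22, 0, 6)
-/

set_option autoImplicit false

namespace Cfsg.Agent.Stn

open Finset

section pbg
variable {α : Type*} {B : Set (Finset α)}

theorem pbg_none_inl (a : α) : (pointBlockGraph B).Adj none (some (Sum.inl a)) := by
  rw [pointBlockGraph, SimpleGraph.fromRel_adj]
  exact ⟨by simp, Or.inl trivial⟩

theorem pbg_none_inr (b : B) : ¬ (pointBlockGraph B).Adj none (some (Sum.inr b)) := by
  rw [pointBlockGraph, SimpleGraph.fromRel_adj]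
  rintro ⟨-, h | h⟩ <;> exact h

theorem pbg_inl_inl (a a' : α) : ¬ (pointBlockGraph B).Adj (some (Sum.inl a)) (some (Sum.inl a')) := by
  rw [pointBlockGraph, SimpleGraph.fromRel_adj]
  rintro ⟨-, h | h⟩ <;> exact h

theorem pbg_inl_inr (a : α) (b : B) : (pointBlockGraph B).Adj (some (Sum.inl a)) (some (Sum.inr b)) ↔ a ∈ b.1 := by
  rw [pointBlockGraph, SimpleGraph.fromRel_adj]
  constructor
  · rintro ⟨-, h | h⟩
    · exact h
    · exact absurd h id
  · intro h; exact ⟨by simp, Or.inl h⟩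

theorem pbg_inr_inr (b c : B) : (pointBlockGraph B).Adj (some (Sum.inr b)) (some (Sum.inr c)) ↔ b ≠ c ∧ Disjoint b.1 c.1 := by
  rw [pointBlockGraph, SimpleGraph.fromRel_adj]
  constructor
  · rintro ⟨h0, h | h⟩
    · exact ⟨fun e => h0 (by rw [e]), h⟩
    · exact ⟨fun e => h0 (by rw [e]), Disjoint.symm h⟩
  · rintro ⟨h0, h⟩; exact ⟨fun e => h0 (by simpa using e), Or.inl h⟩

/-- graph isomorphisms from isomorphisms of set systems -/
theorem pbg_iso {β : Type*} {B' : Set (Finset β)} (e : α ≃ β)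
    (he : ∀ X : Finset α, X ∈ B ↔ X.map e.toEmbedding ∈ B') :
    ∃ φ : pointBlockGraph B ≃g pointBlockGraph B', φ none = none ∧ ∀ a, φ (some (Sum.inl a)) = some (Sum.inl (e a)) := by
  let eB : B ≃ B' := Equiv.subtypeEquiv (Equiv.finsetCongr e) he
  let E : Option (α ⊕ B) ≃ Option (β ⊕ B') := Equiv.optionCongr (Equiv.sumCongr e eB)
  have h1 : ∀ a : α, E (some (Sum.inl a)) = some (Sum.inl (e a)) := fun _ => rfl
  have h2 : ∀ b : B, E (some (Sum.inr b)) = some (Sum.inr (eB b)) := fun _ => rfl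
  have h3 : ∀ b : B, (eB b).1 = b.1.map e.toEmbedding := fun _ => rfl
  refine ⟨⟨E, ?_⟩, rfl, h1⟩
  intro x y
  rcases x with _ | a | b <;> rcases y with _ | a' | b'
  · simp
  · exact ⟨fun _ => pbg_none_inl a', fun _ => pbg_none_inl _⟩
  · exact ⟨fun h => absurd h (pbg_none_inr _), fun h => absurd h (pbg_none_inr _)⟩
  · exact ⟨fun _ => (pbg_none_inl a).symm, fun _ => (pbg_none_inl _).symm⟩
  · exact ⟨fun h => absurd h (pbg_inl_inl _ _), fun h => absurd h (pbg_inl_inl _ _)⟩
  · rw [h1, h2, pbg_inl_inr, pbg_inl_inr, h3, mem_map_equiv, Equiv.symm_apply_apply]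
  · exact ⟨fun h => absurd h.symm (pbg_none_inr _), fun h => absurd h.symm (pbg_none_inr _)⟩
  · rw [h1, h2, SimpleGraph.adj_comm, pbg_inl_inr, SimpleGraph.adj_comm, pbg_inl_inr, h3, mem_map_equiv, Equiv.symm_apply_apply]
  · rw [h2, h2, pbg_inr_inr, pbg_inr_inr, h3, h3, disjoint_map]
    constructor
    · rintro ⟨h, h'⟩; exact ⟨fun e => h (by rw [e]), h'⟩
    · rintro ⟨h, h'⟩; exact ⟨fun e => h (eB.injective e), h'⟩

end pbg

/-- moments for indexed families -/
theorem moment_idx {ι α : Type*} [DecidableEq α] [DecidableEq ι] (C : Finset ι) (F : ι → Finset α) (X : Finset α) (j : ℕ) :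
    ∑ m ∈ C, (F m ∩ X).card.choose j = ∑ Y ∈ X.powersetCard j, (C.filter fun m => Y ⊆ F m).card := by
  have h := sum_card_bipartiteAbove_eq_sum_card_bipartiteBelow (s := C) (t := X.powersetCard j) (fun m Y => Y ⊆ F m)
  have h1 : ∀ m ∈ C, (bipartiteAbove (fun m Y => Y ⊆ F m) (X.powersetCard j) m).card = (F m ∩ X).card.choose j := by
    intro m _
    rw [← card_powersetCard]
    congr 1
    ext Y
    rw [bipartiteAbove, mem_filter, mem_powersetCard, mem_powersetCard, subset_inter_iff]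
    tauto
  rw [sum_congr rfl h1] at h
  exact h

section srg
variable {V : Type*} [Fintype V] [DecidableEq V] {G : SimpleGraph V} [DecidableRel G.Adj]

/-- neighbours -/
def nb (G : SimpleGraph V) [DecidableRel G.Adj] (x : V) : Finset V := univ.filter fun y => G.Adj x y

omit [DecidableEq V] in
theorem mem_nb {x y : V} : y ∈ nb G x ↔ G.Adj x y := by rw [nb, mem_filter]; exact ⟨fun h => h.2, fun h => ⟨mem_univ _, h⟩⟩

omit [DecidableEq V] in
theorem nb_card {n k l m : ℕ} (hG : G.IsSRGWith n k l m) (x : V) : (nb G x).card = k := by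
  have := hG.regular x
  rw [← this, ← SimpleGraph.card_neighborFinset_eq_degree]
  congr 1
  ext y
  rw [mem_nb, SimpleGraph.mem_neighborFinset]

theorem nb_inter {n k l m : ℕ} (hG : G.IsSRGWith n k l m) {x y : V} :
    (G.Adj x y → (nb G x ∩ nb G y).card = l) ∧ (x ≠ y → ¬ G.Adj x y → (nb G x ∩ nb G y).card = m) := by
  have h1 : Fintype.card (G.commonNeighbors x y) = (nb G x ∩ nb G y).card := by
    rw [← Set.toFinset_card]
    congr 1
    ext z
    rw [Set.mem_toFinset, SimpleGraph.mem_commonNeighbors, mem_inter, mem_nb, mem_nb]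
  rw [← h1]
  exact ⟨fun h => hG.of_adj x y h, fun h h' => hG.of_not_adj h h'⟩

variable (hG : G.IsSRGWith 100 22 0 6) (v0 : V)
include hG

theorem tri_free {x y z : V} (h1 : G.Adj x y) (h2 : G.Adj x z) : ¬ G.Adj y z := by
  intro h3
  have := (nb_inter hG).1 h1
  rw [card_eq_zero] at this
  have h4 : z ∈ nb G x ∩ nb G y := mem_inter.2 ⟨mem_nb.2 h2, mem_nb.2 h3⟩
  rw [this] at h4
  exact absurd h4 (notMem_empty z)

theorem meet_two {v0 m m' : V} (h1 : m ≠ v0) (h2 : ¬ G.Adj v0 m) (h3 : m' ≠ v0) (h4 : ¬ G.Adj v0 m') (h5 : m ≠ m')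
    (h6 : ¬ G.Adj m m') : (nb G m' ∩ (nb G m ∩ nb G v0)).card = 2 := by
  set X := nb G m ∩ nb G v0 with hX
  have hX6 : X.card = 6 := (nb_inter hG).2 h1 (fun h => h2 h.symm)
  set C : Finset V := univ.filter fun z => z ≠ v0 ∧ z ≠ m ∧ ¬ G.Adj v0 z ∧ ¬ G.Adj m z with hC
  have hCm : ∀ z, z ∈ C ↔ z ≠ v0 ∧ z ≠ m ∧ ¬ G.Adj v0 z ∧ ¬ G.Adj m z := by
    intro z; rw [hC, mem_filter]; exact ⟨fun h => h.2, fun h => ⟨mem_univ _, h⟩⟩
  have hCc : C.card = 60 := by
    have e1 : Cᶜ = insert v0 (insert m (nb G m ∪ nb G v0)) := by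
      ext z
      rw [mem_compl, hCm, mem_insert, mem_insert, mem_union, mem_nb, mem_nb]
      tauto
    have e2 : Cᶜ.card = 40 := by
      rw [e1, card_insert_of_notMem, card_insert_of_notMem]
      · have := card_union_add_card_inter (nb G m) (nb G v0)
        rw [nb_card hG, nb_card hG, ← hX, hX6] at this
        omega
      · rw [mem_union, mem_nb, mem_nb]
        rintro (h | h)
        · exact G.loopless.irrefl _ h
        · exact h2 h
      · rw [mem_insert, mem_union, mem_nb, mem_nb]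
        rintro (h | h | h)
        · exact h1 h.symm
        · exact h2 h.symm
        · exact G.loopless.irrefl _ h
    have e3 := card_add_card_compl C
    rw [e2, hG.card] at e3
    omega
  have m0 : ∑ z ∈ C, (nb G z ∩ X).card.choose 0 = 60 := by
    simp only [Nat.choose_zero_right, sum_const, smul_eq_mul, mul_one]; exact hCc
  have m1 : ∑ z ∈ C, (nb G z ∩ X).card.choose 1 = 120 := by
    rw [moment_idx]
    have : ∀ Y ∈ X.powersetCard 1, (C.filter fun z => Y ⊆ nb G z).card = 20 := by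
      intro Y hY
      rw [mem_powersetCard] at hY
      obtain ⟨a, rfl⟩ := card_eq_one.1 hY.2
      have ha : a ∈ X := hY.1 (mem_singleton_self a)
      rw [hX, mem_inter, mem_nb, mem_nb] at ha
      have e1 : (C.filter fun z => {a} ⊆ nb G z) = ((nb G a).erase v0).erase m := by
        ext z
        rw [mem_filter, hCm, singleton_subset_iff, mem_nb, mem_erase, mem_erase, mem_nb]
        constructor
        · rintro ⟨⟨a1, a2, a3, a4⟩, a5⟩; exact ⟨a2, a1, a5.symm⟩
        · rintro ⟨a1, a2, a3⟩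
          exact ⟨⟨a2, a1, tri_free hG ha.2.symm a3, tri_free hG ha.1.symm a3⟩, a3.symm⟩
      rw [e1, card_erase_of_mem, card_erase_of_mem, nb_card hG]
      · rw [mem_nb]; exact ha.2.symm
      · rw [mem_erase, mem_nb]; exact ⟨h1, ha.1.symm⟩
    rw [sum_congr rfl this, sum_const, card_powersetCard, hX6]
    rfl
  have m2 : ∑ z ∈ C, (nb G z ∩ X).card.choose 2 = 60 := by
    rw [moment_idx]
    have : ∀ Y ∈ X.powersetCard 2, (C.filter fun z => Y ⊆ nb G z).card = 4 := by
      intro Y hY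
      rw [mem_powersetCard] at hY
      obtain ⟨a, b, hab, rfl⟩ := card_eq_two.1 hY.2
      have ha : a ∈ X := hY.1 (mem_insert_self a _)
      have hb : b ∈ X := hY.1 (mem_insert_of_mem (mem_singleton_self b))
      rw [hX, mem_inter, mem_nb, mem_nb] at ha hb
      have e1 : (C.filter fun z => {a, b} ⊆ nb G z) = ((nb G a ∩ nb G b).erase v0).erase m := by
        ext z
        rw [mem_filter, hCm, insert_subset_iff, singleton_subset_iff, mem_nb, mem_nb, mem_erase, mem_erase, mem_inter, mem_nb, mem_nb]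
        constructor
        · rintro ⟨⟨a1, a2, a3, a4⟩, a5, a6⟩; exact ⟨a2, a1, a5.symm, a6.symm⟩
        · rintro ⟨a1, a2, a3, a4⟩
          exact ⟨⟨a2, a1, tri_free hG ha.2.symm a3, tri_free hG ha.1.symm a3⟩, a3.symm, a4.symm⟩
      rw [e1, card_erase_of_mem, card_erase_of_mem, (nb_inter hG).2 hab (tri_free hG ha.1 hb.1)]
      · rw [mem_inter, mem_nb, mem_nb]; exact ⟨ha.2.symm, hb.2.symm⟩
      · rw [mem_erase, mem_inter, mem_nb, mem_nb]; exact ⟨h1, ha.1.symm, hb.1.symm⟩
    rw [sum_congr rfl this, sum_const, card_powersetCard, hX6]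
    rfl
  have key : ∀ i < 7, 2 * i.choose 2 + 4 * i.choose 0 = 3 * i.choose 1 + (if i = 2 then 0 else 2 * i.choose 2 + 4 - 3 * i) := by decide
  have key2 : ∀ i < 7, (if i = 2 then 0 else 2 * i.choose 2 + 4 - 3 * i) = 0 → i = 2 := by decide
  have hle : ∀ z, (nb G z ∩ X).card < 7 := by
    intro z
    have := card_le_card (inter_subset_right : nb G z ∩ X ⊆ X)
    omega
  have hs : ∑ z ∈ C, (2 * (nb G z ∩ X).card.choose 2 + 4 * (nb G z ∩ X).card.choose 0) =
      ∑ z ∈ C, (3 * (nb G z ∩ X).card.choose 1 + (if (nb G z ∩ X).card = 2 then 0 else 2 * (nb G z ∩ X).card.choose 2 + 4 - 3 * (nb G z ∩ X).card)) :=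
    sum_congr rfl (fun z _ => key _ (hle z))
  rw [sum_add_distrib, sum_add_distrib, ← mul_sum, ← mul_sum, ← mul_sum, m0, m1, m2] at hs
  have hz : ∑ z ∈ C, (if (nb G z ∩ X).card = 2 then 0 else 2 * (nb G z ∩ X).card.choose 2 + 4 - 3 * (nb G z ∩ X).card) = 0 := by omega
  rw [sum_eq_zero_iff] at hz
  exact key2 _ (hle m') (hz m' ((hCm m').2 ⟨h3, h5.symm, h4, h6⟩))

/-- the blocks of the system on the neighbours of v0 -/
def blkOf (G : SimpleGraph V) [DecidableRel G.Adj] (v0 m : V) : Finset {x // x ∈ nb G v0} := (nb G m).subtype (fun x => x ∈ nb G v0)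

omit hG in
theorem blk_inter_card (m m' : V) : (blkOf G v0 m ∩ blkOf G v0 m').card = (nb G m ∩ (nb G m' ∩ nb G v0)).card := by
  rw [← card_map (Function.Embedding.subtype _)]
  congr 1
  ext x
  simp only [blkOf, mem_map, mem_inter, mem_subtype, Function.Embedding.subtype_apply]
  constructor
  · rintro ⟨a, ⟨h1, h2⟩, rfl⟩; exact ⟨h1, h2, a.2⟩
  · rintro ⟨h1, h2, h3⟩; exact ⟨⟨x, h3⟩, ⟨h1, h2⟩, rfl⟩

/-- the set of blocks -/
def blks (G : SimpleGraph V) [DecidableRel G.Adj] (v0 : V) : Set (Finset {x // x ∈ nb G v0}) :=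
  {X | ∃ m, m ≠ v0 ∧ ¬ G.Adj v0 m ∧ X = blkOf G v0 m}

theorem blk_card {m : V} (h1 : m ≠ v0) (h2 : ¬ G.Adj v0 m) : (blkOf G v0 m).card = 6 := by
  have := blk_inter_card (G := G) v0 m m
  rw [inter_self, ← inter_assoc, inter_self, (nb_inter hG).2 h1 (fun h => h2 h.symm)] at this
  exact this

theorem blk_inter_le {m m' : V} (h1 : m ≠ v0) (h2 : ¬ G.Adj v0 m) (h3 : m' ≠ v0) (h4 : ¬ G.Adj v0 m') (h5 : m ≠ m') :
    (blkOf G v0 m ∩ blkOf G v0 m').card = if G.Adj m m' then 0 else 2 := by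
  rw [inter_comm, blk_inter_card]
  split_ifs with h
  · have h6 := (nb_inter hG).1 h
    rw [← inter_assoc, inter_comm (nb G m')]
    have h7 := card_le_card (inter_subset_left : nb G m ∩ nb G m' ∩ nb G v0 ⊆ nb G m ∩ nb G m')
    omega
  · exact meet_two hG h1 h2 h3 h4 h5 h

theorem blk_inj {m m' : V} (h1 : m ≠ v0) (h2 : ¬ G.Adj v0 m) (h3 : m' ≠ v0) (h4 : ¬ G.Adj v0 m')
    (he : blkOf G v0 m = blkOf G v0 m') : m = m' := by
  by_contra h5
  have h6 := blk_inter_le hG v0 h1 h2 h3 h4 h5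
  rw [← he, inter_self, blk_card hG v0 h1 h2] at h6
  split_ifs at h6 <;> omega

theorem srg_steiner : Fintype.card {x // x ∈ nb G v0} = 22 ∧ IsSteinerSystem 3 6 (blks G v0) := by
  have hc : Fintype.card {x // x ∈ nb G v0} = 22 := by rw [Fintype.card_coe, nb_card hG]
  refine ⟨hc, ?_, ?_⟩
  · rintro _ ⟨m, h1, h2, rfl⟩
    exact blk_card hG v0 h1 h2
  · -- counting
    set C : Finset V := univ.filter fun z => z ≠ v0 ∧ ¬ G.Adj v0 z with hC
    have hCm : ∀ z, z ∈ C ↔ z ≠ v0 ∧ ¬ G.Adj v0 z := by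
      intro z; rw [hC, mem_filter]; exact ⟨fun h => h.2, fun h => ⟨mem_univ _, h⟩⟩
    have hCc : C.card = 77 := by
      have e1 : Cᶜ = insert v0 (nb G v0) := by
        ext z
        rw [mem_compl, hCm, mem_insert, mem_nb]
        tauto
      have e3 := card_add_card_compl C
      rw [e1, hG.card, card_insert_of_notMem, nb_card hG] at e3
      · omega
      · rw [mem_nb]; exact G.loopless.irrefl _
    have hm := moment_idx C (fun m => blkOf G v0 m) univ 3
    have h1 : ∑ m ∈ C, (blkOf G v0 m ∩ univ).card.choose 3 = 1540 := by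
      have : ∀ m ∈ C, (blkOf G v0 m ∩ univ).card.choose 3 = 20 := by
        intro m hm
        rw [hCm] at hm
        rw [inter_univ, blk_card hG v0 hm.1 hm.2]; rfl
      rw [sum_congr rfl this, sum_const, hCc]; rfl
    rw [h1] at hm
    have hle : ∀ Y ∈ (univ : Finset {x // x ∈ nb G v0}).powersetCard 3, (C.filter fun m => Y ⊆ blkOf G v0 m).card ≤ 1 := by
      intro Y hY
      rw [card_le_one]
      intro a ha b hb
      rw [mem_filter, hCm] at ha hb
      by_contra hne
      have h2 := blk_inter_le hG v0 ha.1.1 ha.1.2 hb.1.1 hb.1.2 hne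
      have h3 := card_le_card (subset_inter ha.2 hb.2)
      rw [(mem_powersetCard.1 hY).2, h2] at h3
      split_ifs at h3 <;> omega
    have hone : ∑ Y ∈ (univ : Finset {x // x ∈ nb G v0}).powersetCard 3, 1 = 1540 := by
      rw [sum_const, card_powersetCard, card_univ, hc]; rfl
    have heq := (sum_eq_sum_iff_of_le hle).1 (by rw [← hm, hone])
    intro s hs
    have hsm : s ∈ (univ : Finset {x // x ∈ nb G v0}).powersetCard 3 := mem_powersetCard.2 ⟨subset_univ _, hs⟩
    obtain ⟨m, hm'⟩ := card_eq_one.1 (heq s hsm)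
    have hmm : m ∈ C.filter fun m => s ⊆ blkOf G v0 m := by rw [hm']; exact mem_singleton_self m
    rw [mem_filter, hCm] at hmm
    refine ⟨blkOf G v0 m, ⟨⟨m, hmm.1.1, hmm.1.2, rfl⟩, hmm.2⟩, ?_⟩
    rintro _ ⟨⟨m', h1, h2, rfl⟩, h3⟩
    have : m' ∈ C.filter fun m => s ⊆ blkOf G v0 m := by rw [mem_filter, hCm]; exact ⟨⟨h1, h2⟩, h3⟩
    rw [hm', mem_singleton] at this
    rw [this]

theorem srg_iso : ∃ φ : pointBlockGraph (blks G v0) ≃g G, φ none = v0 := by
  classical
  let F : Option ({x // x ∈ nb G v0} ⊕ (blks G v0)) → V := fun o =>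
    match o with
    | none => v0
    | some (Sum.inl a) => a.1
    | some (Sum.inr b) => b.2.choose
  have hFb : ∀ b : blks G v0, F (some (Sum.inr b)) ≠ v0 ∧ ¬ G.Adj v0 (F (some (Sum.inr b))) ∧ b.1 = blkOf G v0 (F (some (Sum.inr b))) :=
    fun b => b.2.choose_spec
  have hFa : ∀ a : {x // x ∈ nb G v0}, G.Adj v0 (F (some (Sum.inl a))) := fun a => mem_nb.1 a.2
  have hinj : Function.Injective F := by
    intro x y hxy
    rcases x with _ | a | b <;> rcases y with _ | a' | b'
    · rfl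
    · exfalso; have := hFa a'; rw [← hxy] at this; exact G.loopless.irrefl _ this
    · exfalso; exact (hFb b').1 hxy.symm
    · exfalso; have := hFa a; rw [hxy] at this; exact G.loopless.irrefl _ this
    · have : a = a' := Subtype.ext hxy
      rw [this]
    · exfalso; have := hFa a; rw [hxy] at this; exact (hFb b').2.1 this
    · exfalso; exact (hFb b).1 hxy
    · exfalso; have := hFa a'; rw [← hxy] at this; exact (hFb b).2.1 this
    · have h1 := (hFb b).2.2
      have h2 := (hFb b').2.2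
      rw [hxy, ← h2] at h1
      rw [Subtype.ext h1]
  have hsurj : Function.Surjective F := by
    intro v
    by_cases h1 : v = v0
    · exact ⟨none, h1.symm⟩
    · by_cases h2 : G.Adj v0 v
      · exact ⟨some (Sum.inl ⟨v, mem_nb.2 h2⟩), rfl⟩
      · refine ⟨some (Sum.inr ⟨blkOf G v0 v, ⟨v, h1, h2, rfl⟩⟩), ?_⟩
        have h3 := hFb ⟨blkOf G v0 v, ⟨v, h1, h2, rfl⟩⟩
        exact (blk_inj hG v0 h1 h2 h3.1 h3.2.1 h3.2.2).symm
  refine ⟨⟨Equiv.ofBijective F ⟨hinj, hsurj⟩, ?_⟩, rfl⟩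
  intro x y
  show G.Adj (F x) (F y) ↔ _
  rcases x with _ | a | b <;> rcases y with _ | a' | b'
  · exact ⟨fun h => absurd h (G.loopless.irrefl _), fun h => absurd h (SimpleGraph.irrefl _)⟩
  · exact ⟨fun _ => pbg_none_inl a', fun _ => hFa a'⟩
  · exact ⟨fun h => absurd h (hFb b').2.1, fun h => absurd h (pbg_none_inr _)⟩
  · exact ⟨fun _ => (pbg_none_inl a).symm, fun _ => (hFa a).symm⟩
  · exact ⟨fun h => absurd h (tri_free hG (hFa a) (hFa a')), fun h => absurd h (pbg_inl_inl _ _)⟩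
  · rw [pbg_inl_inr, (hFb b').2.2, blkOf, mem_subtype, mem_nb, SimpleGraph.adj_comm]
  · exact ⟨fun h => absurd h.symm (hFb b).2.1, fun h => absurd h.symm (pbg_none_inr _)⟩
  · rw [SimpleGraph.adj_comm (pointBlockGraph _), pbg_inl_inr, (hFb b).2.2, blkOf, mem_subtype, mem_nb]
  · rw [pbg_inr_inr]
    by_cases hbb : b = b'
    · subst hbb
      exact ⟨fun h => absurd h (G.loopless.irrefl _), fun h => absurd rfl h.1⟩
    · have hne : F (some (Sum.inr b)) ≠ F (some (Sum.inr b')) := fun h => hbb (Sum.inr.inj (Option.some.inj (hinj h)))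
      have h1 := blk_inter_le hG v0 (hFb b).1 (hFb b).2.1 (hFb b').1 (hFb b').2.1 hne
      rw [← (hFb b).2.2, ← (hFb b').2.2] at h1
      rw [disjoint_iff_inter_eq_empty, ← card_eq_zero, h1]
      split_ifs with h
      · exact ⟨fun _ => ⟨hbb, rfl⟩, fun _ => h⟩
      · exact ⟨fun h' => absurd h' h, fun h' => absurd h'.2 (by norm_num)⟩

end srg

theorem ssi_iff {α β : Type*} [DecidableEq β] {B : Set (Finset α)} {B' : Set (Finset β)} (h : SetSystemIso B B') :
    ∃ e : α ≃ β, ∀ X : Finset α, X ∈ B ↔ X.map e.toEmbedding ∈ B' := by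
  obtain ⟨e, he⟩ := h
  refine ⟨e, ?_⟩
  intro X
  have h1 : X.map e.toEmbedding = X.image e := by rw [map_eq_image]; rfl
  constructor
  · intro hX
    rw [h1, ← he]
    exact ⟨X, hX, rfl⟩
  · intro hX
    rw [← he] at hX
    obtain ⟨Y, hY, hYX⟩ := hX
    have h2 : Y.map e.toEmbedding = X.map e.toEmbedding := by
      rw [← hYX, map_eq_image]; rfl
    rw [← map_injective e.toEmbedding h2]
    exact hY

end Cfsg.Agent.Stn
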