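import Cfsg.Agent.Stn.Graph
import Cfsg.Agent.S0410
import Cfsg.Agent.S0428

/-!
# Automorphisms of the Higman-Sims graph
-/

set_option autoImplicit false

namespace Cfsg.Agent.Stn

open Finset

variable {α : Type*} [Fintype α] [DecidableEq α] {B : Set (Finset α)}

omit [Fintype α] [DecidableEq α] in
/-- automorphisms fixing the extra vertex are determined by the points -/
theorem pbg_ext {φ ψ : pointBlockGraph B ≃g pointBlockGraph B} (h1 : φ none = none) (h2 : ψ none = none) {g : Equiv.Perm α}
    (h3 : ∀ a, φ (some (Sum.inl a)) = some (Sum.inl (g a))) (h4 : ∀ a, ψ (some (Sum.inl a)) = some (Sum.inl (g a))) : φ = ψ := by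
  have key : ∀ χ : pointBlockGraph B ≃g pointBlockGraph B, χ none = none → (∀ a, χ (some (Sum.inl a)) = some (Sum.inl (g a))) →
      ∀ b : B, ∃ c : B, χ (some (Sum.inr b)) = some (Sum.inr c) ∧ ∀ a, a ∈ b.1 ↔ g a ∈ c.1 := by
    intro χ hn hi b
    have h5 : ¬ (pointBlockGraph B).Adj none (χ (some (Sum.inr b))) := by
      rw [← hn, χ.map_adj_iff]; exact pbg_none_inr b
    rcases hb : χ (some (Sum.inr b)) with _ | a | c
    · rw [← hn] at hb
      exact absurd (χ.injective hb) (by simp)
    · rw [hb] at h5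
      exact absurd (pbg_none_inl a) h5
    · refine ⟨c, rfl, ?_⟩
      intro a
      rw [← pbg_inl_inr a b, ← pbg_inl_inr (g a) c, ← hi, ← hb, χ.map_adj_iff]
  ext1 x
  rcases x with _ | a | b
  · rw [h1, h2]
  · rw [h3, h4]
  · obtain ⟨c, hc, hc'⟩ := key φ h1 h3 b
    obtain ⟨d, hd, hd'⟩ := key ψ h2 h4 b
    rw [hc, hd]
    have : c = d := by
      apply Subtype.ext
      ext a
      obtain ⟨a', rfl⟩ := g.surjective a
      rw [← hc', ← hd']
    rw [this]

omit [Fintype α] in
/-- an automorphism fixing the extra vertex induces an automorphism of the system -/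
theorem pbg_restrict [Finite α] {φ : pointBlockGraph B ≃g pointBlockGraph B} (h1 : φ none = none) :
    ∃ g : Equiv.Perm α, g ∈ setSystemAut B ∧ ∀ a, φ (some (Sum.inl a)) = some (Sum.inl (g a)) := by
  have key : ∀ χ : pointBlockGraph B ≃g pointBlockGraph B, χ none = none → ∀ a, ∃ a', χ (some (Sum.inl a)) = some (Sum.inl a') := by
    intro χ hn a
    have h5 : (pointBlockGraph B).Adj none (χ (some (Sum.inl a))) := by
      have := χ.map_adj_iff.2 (pbg_none_inl (B := B) a)
      rwa [hn] at this
    rcases hb : χ (some (Sum.inl a)) with _ | a' | c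
    · rw [hb] at h5
      exact absurd h5 (SimpleGraph.irrefl _)
    · exact ⟨a', rfl⟩
    · rw [hb] at h5
      exact absurd h5 (pbg_none_inr c)
  have h1' : φ.symm none = none := by
    have := RelIso.symm_apply_apply φ none
    rwa [h1] at this
  choose g hg using key φ h1
  choose g' hg' using key φ.symm h1'
  let e : Equiv.Perm α :=
    { toFun := g
      invFun := g'
      left_inv := by
        intro a
        have h2 := hg' (g a)
        rw [← hg, RelIso.symm_apply_apply] at h2
        exact (Sum.inl.inj (Option.some.inj h2)).symm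
      right_inv := by
        intro a
        have h2 := hg (g' a)
        rw [← hg', RelIso.apply_symm_apply] at h2
        exact (Sum.inl.inj (Option.some.inj h2)).symm }
  have hblk : ∀ b : B, b.1.map e.toEmbedding ∈ B := by
    intro b
    have h5 : ¬ (pointBlockGraph B).Adj none (φ (some (Sum.inr b))) := by
      rw [← h1, φ.map_adj_iff]; exact pbg_none_inr b
    rcases hb : φ (some (Sum.inr b)) with _ | a | c
    · rw [← h1] at hb
      exact absurd (φ.injective hb) (by simp)
    · rw [hb] at h5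
      exact absurd (pbg_none_inl a) h5
    · have : b.1.map e.toEmbedding = c.1 := by
        ext a
        rw [mem_map_equiv, ← pbg_inl_inr (e.symm a) b, ← φ.map_adj_iff, hb, hg, pbg_inl_inr]
        show e (e.symm a) ∈ _ ↔ _
        rw [Equiv.apply_symm_apply]
      rw [this]; exact c.2
  have hblk' : ∀ b : B, b.1.map e.symm.toEmbedding ∈ B := by
    intro b
    have h5 : ¬ (pointBlockGraph B).Adj none (φ.symm (some (Sum.inr b))) := by
      rw [← h1', φ.symm.map_adj_iff]; exact pbg_none_inr b
    rcases hb : φ.symm (some (Sum.inr b)) with _ | a | c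
    · rw [← h1'] at hb
      exact absurd (φ.symm.injective hb) (by simp)
    · rw [hb] at h5
      exact absurd (pbg_none_inl a) h5
    · have : b.1.map e.symm.toEmbedding = c.1 := by
        ext a
        rw [mem_map_equiv, Equiv.symm_symm, ← pbg_inl_inr (e a) b, ← φ.symm.map_adj_iff, hb, hg', pbg_inl_inr]
        show e.symm (e a) ∈ _ ↔ _
        rw [Equiv.symm_apply_apply]
      rw [this]; exact c.2
  refine ⟨e, ?_, hg⟩
  rw [mem_aut]
  intro X
  refine ⟨fun h => ?_, fun h => hblk ⟨X, h⟩⟩
  have h2 := hblk' ⟨_, h⟩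
  have h3 : (X.map e.toEmbedding).map e.symm.toEmbedding = X := by
    ext z; simp only [Finset.mem_map_equiv]; simp
  rw [h3] at h2
  exact h2

variable (hα : Fintype.card α = 22) (hB : IsSteinerSystem 3 6 B)
include hα hB

theorem pbg_trans (v : Option (α ⊕ B)) : ∃ φ : pointBlockGraph B ≃g pointBlockGraph B, φ none = v := by
  classical
  have : Fintype B := Fintype.ofFinite B
  have hG : (pointBlockGraph B).IsSRGWith 100 22 0 6 := Cfsg.Agent.S0428.result hα hB
  obtain ⟨c1, s1⟩ := srg_steiner hG v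
  obtain ⟨e, he⟩ := ssi_iff (Cfsg.Agent.S0410.result hα c1 hB s1)
  obtain ⟨χ, hχ, -⟩ := pbg_iso e he
  obtain ⟨φ, hφ⟩ := srg_iso hG v
  exact ⟨χ.trans φ, by rw [RelIso.trans_apply, hχ, hφ]⟩

theorem card_stab_none : Nat.card (MulAction.stabilizer (pointBlockGraph B ≃g pointBlockGraph B) (none : Option (α ⊕ B))) = 887040 := by
  rw [← (final3 hα hB).1]
  have hF : ∀ g : setSystemAut B, ∃ φ : MulAction.stabilizer (pointBlockGraph B ≃g pointBlockGraph B) (none : Option (α ⊕ B)),
      ∀ a, φ.1 (some (Sum.inl a)) = some (Sum.inl (g.1 a)) := by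
    intro g
    obtain ⟨φ, h1, h2⟩ := pbg_iso (B := B) (B' := B) g.1 (fun X => (mem_aut.1 g.2 X).symm)
    exact ⟨⟨φ, h1⟩, h2⟩
  choose F hF using hF
  symm
  apply Nat.card_congr (Equiv.ofBijective F ⟨?_, ?_⟩)
  · intro g g' h
    apply Subtype.ext
    ext1 a
    have h1 := hF g a
    rw [h, hF g' a] at h1
    exact (Sum.inl.inj (Option.some.inj h1)).symm
  · intro φ
    obtain ⟨g, hg, hφ⟩ := pbg_restrict (φ := φ.1) φ.2
    refine ⟨⟨g, hg⟩, ?_⟩
    apply Subtype.ext
    exact pbg_ext (F ⟨g, hg⟩).2 φ.2 (hF ⟨g, hg⟩) hφ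

theorem card_pbg_aut : Nat.card (pointBlockGraph B ≃g pointBlockGraph B) = 88704000 := by
  classical
  have : Fintype B := Fintype.ofFinite B
  have hG : (pointBlockGraph B).IsSRGWith 100 22 0 6 := Cfsg.Agent.S0428.result hα hB
  have h1 := (MulAction.stabilizer (pointBlockGraph B ≃g pointBlockGraph B) (none : Option (α ⊕ B))).index_mul_card
  rw [MulAction.index_stabilizer, card_stab_none hα hB] at h1
  have h2 : MulAction.orbit (pointBlockGraph B ≃g pointBlockGraph B) (none : Option (α ⊕ B)) = Set.univ := by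
    ext v
    simp only [Set.mem_univ, iff_true]
    obtain ⟨φ, hφ⟩ := pbg_trans hα hB v
    exact ⟨φ, hφ⟩
  rw [h2, Set.ncard_univ, Nat.card_eq_fintype_card, hG.card] at h1
  rw [← h1]

end Cfsg.Agent.Stn
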