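import Cfsg.Agent.Stn.GraphAut
import Cfsg.Agent.Leech.RankFin
import Cfsg.Agent.LeechSimple.HS
import Cfsg.Agent.S0430

/-!
# The Higman-Sims graph in the Leech lattice
-/

set_option autoImplicit false

namespace Cfsg.Agent.Stn

open Finset Cfsg.Agent.Leech Cfsg

/-- the 100 vertices -/
abbrev X100 : Type := {x : leechLattice // x ∈ T3 Spor.leechV wHS 24 (-24)}

noncomputable instance : Fintype X100 := (T3_finite Spor.leechV wHS 24 (-24)).fintype

theorem card_X100 : Fintype.card X100 = 100 := by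
  rw [← Nat.card_eq_fintype_card, Nat.card_coe_set_eq, T100_ncard]

/-- scalar product -/
def dX (x y : X100) : ℤ := dotInt (x.1 : GolayPt → ℤ) (y.1 : GolayPt → ℤ)

theorem dX_comm (x y : X100) : dX x y = dX y x := dotInt_comm _ _

theorem dX_self (x : X100) : dX x x = 32 := (dotInt_self _).trans x.2.1

/-- the graph -/
def Γ100 : SimpleGraph X100 where
  Adj x y := dX x y = 8
  symm := ⟨fun x y h => by rw [dX_comm]; exact h⟩
  loopless := ⟨fun x h => by rw [dX_self] at h; omega⟩

noncomputable instance : DecidableRel Γ100.Adj := fun x y => Classical.propDecidable _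

theorem adj_iff (x y : X100) : Γ100.Adj x y ↔ dX x y = 8 := Iff.rfl

theorem no_triangle {x y z : X100} (h1 : dX x y = 8) (h2 : dX x z = 8) (h3 : dX y z = 8) : False := by
  set V : GolayPt → ℤ := (Spor.leechV : GolayPt → ℤ) with hV
  set w : GolayPt → ℤ := (wHS : GolayPt → ℤ) with hw
  set a : GolayPt → ℤ := (x.1 : GolayPt → ℤ) with ha
  set b : GolayPt → ℤ := (y.1 : GolayPt → ℤ) with hb
  set c : GolayPt → ℤ := (z.1 : GolayPt → ℤ) with hc
  have e1 : sqNorm a = 32 := x.2.1
  have e2 : sqNorm b = 32 := y.2.1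
  have e3 : sqNorm c = 32 := z.2.1
  have f1 : dotInt V a = 24 := x.2.2.1
  have f2 : dotInt V b = 24 := y.2.2.1
  have f3 : dotInt V c = 24 := z.2.2.1
  have g1 : dotInt w a = -24 := x.2.2.2
  have g2 : dotInt w b = -24 := y.2.2.2
  have g3 : dotInt w c = -24 := z.2.2.2
  have i1 : dotInt a b = 8 := h1
  have i2 : dotInt a c = 8 := h2
  have i3 : dotInt b c = 8 := h3
  have j1 : sqNorm V = 48 := norm_leechV
  have j2 : dotInt V w = -32 := dot_V_wHS
  have j3 : sqNorm w = 48 := by rw [hw]; decide +kernel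
  have hn : sqNorm (a + b + c + w - V) = 16 := by
    rw [sqNorm_sub, sqNorm_add, sqNorm_add, sqNorm_add, dotInt_add_left, dotInt_add_left, dotInt_add_left, dotInt_add_left, dotInt_add_left, dotInt_add_left,
      e1, e2, e3, i1, i2, i3, j1, j3, dotInt_comm a w, dotInt_comm b w, dotInt_comm c w, g1, g2, g3,
      dotInt_comm a V, dotInt_comm b V, dotInt_comm c V, f1, f2, f3, dotInt_comm w V, j2]
    norm_num
  have hmem : (a + b + c + w - V) ∈ leechLattice := (x.1 + y.1 + z.1 + wHS - Spor.leechV).2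
  have hne : a + b + c + w - V ≠ 0 := by
    intro h0
    rw [h0] at hn
    have : sqNorm (0 : GolayPt → ℤ) = 0 := (sqNorm_eq_zero_iff 0).2 rfl
    omega
  have := min_norm hmem hne
  omega

/-- action -/
def actX (g : stHS) (x : X100) : X100 := ⟨g.1 • x.1, by
  have e1 : (g : Co0) • Spor.leechV = Spor.leechV := stHS_V g.2
  have e2 : (g : Co0) • wHS = wHS := stHS_w g.2
  have := (smul_mem_T3 (g : Co0) Spor.leechV wHS x.1 24 (-24)).1 x.2
  rw [e1, e2] at this
  exact this⟩

theorem dX_act (g : stHS) (x y : X100) : dX (actX g x) (actX g y) = dX x y := co0_dot g.1 x.1 y.1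

theorem act_mul (g h : stHS) (x : X100) : actX (g * h) x = actX g (actX h x) := Subtype.ext (mul_smul g.1 h.1 x.1)
theorem act_one (x : X100) : actX 1 x = x := Subtype.ext (one_smul Co0 x.1)

/-- the homomorphism to the automorphism group of the graph -/
def rhoX : stHS →* (Γ100 ≃g Γ100) where
  toFun g :=
    { toFun := actX g
      invFun := actX g⁻¹
      left_inv := fun x => by rw [← act_mul, inv_mul_cancel, act_one]
      right_inv := fun x => by rw [← act_mul, mul_inv_cancel, act_one]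
      map_rel_iff' := by
        intro x y
        show dX (actX g x) (actX g y) = 8 ↔ dX x y = 8
        rw [dX_act] }
  map_one' := by
    ext1 x
    exact act_one x
  map_mul' g h := by
    ext1 x
    exact act_mul g h x

theorem rhoX_apply (g : stHS) (x : X100) : rhoX g x = actX g x := rfl

/-- base vertex -/
def pX : X100 := ⟨p100, by rw [← T100_orbit]; exact MulAction.mem_orbit_self p100⟩

theorem trans_X (x : X100) : ∃ g : stHS, actX g pX = x := by
  have : x.1 ∈ MulAction.orbit stHS p100 := by rw [T100_orbit]; exact x.2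
  obtain ⟨g, hg⟩ := this
  exact ⟨g, Subtype.ext hg⟩

theorem trans_X' (x : X100) : ∃ g : stHS, actX g x = pX := by
  obtain ⟨g, hg⟩ := trans_X x
  refine ⟨g⁻¹, ?_⟩
  rw [← hg, ← act_mul, inv_mul_cancel, act_one]

section
variable {V : Type*} [Fintype V] [DecidableEq V] {G : SimpleGraph V} [DecidableRel G.Adj]

theorem nb_map_card (φ : G ≃g G) (x : V) : (nb G (φ x)).card = (nb G x).card := by
  rw [← card_map φ.toEquiv.toEmbedding (s := nb G x)]
  congr 1
  ext y
  obtain ⟨z, rfl⟩ := φ.surjective y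
  rw [mem_nb, mem_map_equiv, mem_nb, φ.map_adj_iff]
  have : φ.toEquiv.symm (φ z) = z := φ.toEquiv.symm_apply_apply z
  rw [this]

theorem nb_inter_map_card (φ : G ≃g G) (x y : V) : (nb G (φ x) ∩ nb G (φ y)).card = (nb G x ∩ nb G y).card := by
  rw [← card_map φ.toEquiv.toEmbedding (s := nb G x ∩ nb G y)]
  congr 1
  ext y'
  obtain ⟨z, rfl⟩ := φ.surjective y'
  have : φ.toEquiv.symm (φ z) = z := φ.toEquiv.symm_apply_apply z
  rw [mem_inter, mem_nb, mem_nb, mem_map_equiv, mem_inter, mem_nb, mem_nb, φ.map_adj_iff, φ.map_adj_iff, this]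
end

theorem nb_pX : (nb Γ100 pX).card = 22 := by
  classical
  rw [← (rank_100).1.1, ← (rank_100).2.2.1, ← Set.ncard_coe_finset]
  rw [← Set.ncard_image_of_injective _ (Subtype.val_injective (p := fun x => x ∈ T3 Spor.leechV wHS 24 (-24)))]
  congr 1
  ext y
  simp only [Set.mem_image, mem_coe, mem_nb, Set.mem_ofPred_eq]
  constructor
  · rintro ⟨z, hz, rfl⟩
    exact ⟨z.2, hz⟩
  · rintro ⟨h1, h2⟩
    exact ⟨⟨y, h1⟩, h2, rfl⟩

theorem nb_card_X (x : X100) : (nb Γ100 x).card = 22 := by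
  classical
  obtain ⟨g, hg⟩ := trans_X x
  rw [← hg, ← rhoX_apply, nb_map_card, nb_pX]

theorem nonadj_orbit {y : X100} (h1 : y ≠ pX) (h2 : ¬ Γ100.Adj pX y) : y.1 ∈ MulAction.orbit stHS100 p77 := by
  rcases (rank_100).2.1 y.1 y.2 (fun h => h1 (Subtype.ext h)) with h | h
  · exfalso
    rw [← (rank_100).2.2.1] at h
    exact h2 h.2
  · exact h

theorem nonadj_conj {y z : X100} (h1 : y ≠ pX) (h2 : ¬ Γ100.Adj pX y) (h3 : z ≠ pX) (h4 : ¬ Γ100.Adj pX z) :
    ∃ g : stHS, actX g pX = pX ∧ actX g y = z := by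
  obtain ⟨g, hg, hgy⟩ := orbit_pair (nonadj_orbit h1 h2) (nonadj_orbit h3 h4)
  exact ⟨⟨g, hg.1⟩, Subtype.ext hg.2, Subtype.ext hgy⟩

theorem srg_100 : Γ100.IsSRGWith 100 22 0 6 := by
  classical
  have hfree : ∀ x y : X100, Γ100.Adj x y → nb Γ100 x ∩ nb Γ100 y = ∅ := by
    intro x y hxy
    rw [eq_empty_iff_forall_notMem]
    intro z hz
    rw [mem_inter, mem_nb, mem_nb] at hz
    exact no_triangle hxy hz.1 hz.2
  -- nonneighbours of the base vertex
  set C : Finset X100 := univ.filter fun z => z ≠ pX ∧ ¬ Γ100.Adj pX z with hC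
  have hCm : ∀ z, z ∈ C ↔ z ≠ pX ∧ ¬ Γ100.Adj pX z := by
    intro z; rw [hC, mem_filter]; exact ⟨fun h => h.2, fun h => ⟨mem_univ _, h⟩⟩
  have hCc : C.card = 77 := by
    have e1 : Cᶜ = insert pX (nb Γ100 pX) := by
      ext z
      rw [mem_compl, hCm, mem_insert, mem_nb]
      tauto
    have e3 := card_add_card_compl C
    rw [e1, card_X100, card_insert_of_notMem, nb_card_X] at e3
    · omega
    · rw [mem_nb]; exact SimpleGraph.irrefl _
  have hmom := moment_idx C (fun z => nb Γ100 z) (nb Γ100 pX) 1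
  have h1 : ∀ Y ∈ (nb Γ100 pX).powersetCard 1, (C.filter fun z => Y ⊆ nb Γ100 z).card = 21 := by
    intro Y hY
    rw [mem_powersetCard] at hY
    obtain ⟨a, rfl⟩ := card_eq_one.1 hY.2
    have ha : a ∈ nb Γ100 pX := hY.1 (mem_singleton_self a)
    rw [mem_nb] at ha
    have e1 : (C.filter fun z => {a} ⊆ nb Γ100 z) = (nb Γ100 a).erase pX := by
      ext z
      rw [mem_filter, hCm, singleton_subset_iff, mem_nb, mem_erase, mem_nb]
      constructor
      · rintro ⟨⟨a1, a2⟩, a5⟩; exact ⟨a1, a5.symm⟩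
      · rintro ⟨a1, a3⟩
        refine ⟨⟨a1, fun h => ?_⟩, a3.symm⟩
        have : z ∈ nb Γ100 pX ∩ nb Γ100 a := mem_inter.2 ⟨mem_nb.2 h, mem_nb.2 a3⟩
        rw [hfree pX a ha] at this
        exact absurd this (notMem_empty z)
    rw [e1, card_erase_of_mem, nb_card_X]
    rw [mem_nb]; exact ha.symm
  rw [sum_congr rfl h1, sum_const, card_powersetCard, nb_card_X] at hmom
  have hne : C.Nonempty := card_pos.1 (by omega)
  obtain ⟨q, hq⟩ := hne
  have hconst : ∀ z ∈ C, (nb Γ100 pX ∩ nb Γ100 z).card = (nb Γ100 pX ∩ nb Γ100 q).card := by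
    intro z hz
    rw [hCm] at hz hq
    obtain ⟨g, hg1, hg2⟩ := nonadj_conj hq.1 hq.2 hz.1 hz.2
    have := nb_inter_map_card (rhoX g) pX q
    rw [rhoX_apply, rhoX_apply, hg1, hg2] at this
    exact this
  have hsix : (nb Γ100 pX ∩ nb Γ100 q).card = 6 := by
    have h2 : ∑ m ∈ C, (nb Γ100 m ∩ nb Γ100 pX).card.choose 1 = 77 * (nb Γ100 pX ∩ nb Γ100 q).card := by
      rw [← hCc, ← smul_eq_mul, ← sum_const]
      apply sum_congr rfl
      intro z hz
      rw [Nat.choose_one_right, inter_comm, hconst z hz]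
    rw [h2] at hmom
    norm_num at hmom
    omega
  have hnon : ∀ x y : X100, x ≠ y → ¬ Γ100.Adj x y → (nb Γ100 x ∩ nb Γ100 y).card = 6 := by
    intro x y hxy hadj
    obtain ⟨g, hg⟩ := trans_X' x
    have h3 := nb_inter_map_card (rhoX g) x y
    rw [rhoX_apply, rhoX_apply, hg] at h3
    rw [← h3, ← hsix]
    apply hconst
    rw [hCm]
    constructor
    · intro h
      apply hxy
      have : rhoX g x = rhoX g y := by rw [rhoX_apply, rhoX_apply, hg, h]
      exact (rhoX g).injective this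
    · intro h
      apply hadj
      rw [← (rhoX g).map_adj_iff, rhoX_apply, rhoX_apply, hg]
      exact h
  have hcn : ∀ x y : X100, Fintype.card (Γ100.commonNeighbors x y) = (nb Γ100 x ∩ nb Γ100 y).card := by
    intro x y
    rw [← Set.toFinset_card]
    congr 1
    ext z
    rw [Set.mem_toFinset, SimpleGraph.mem_commonNeighbors, mem_inter, mem_nb, mem_nb]
  refine ⟨card_X100, ?_, ?_, ?_⟩
  · intro x
    rw [← nb_card_X x, ← SimpleGraph.card_neighborFinset_eq_degree]
    congr 1
    ext y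
    rw [mem_nb, SimpleGraph.mem_neighborFinset]
  · intro x y hxy
    rw [hcn, hfree x y hxy, card_empty]
  · intro x y hxy hadj
    rw [hcn, hnon x y hxy hadj]

theorem isHS_stHS : IsHS stHS := ⟨Cfsg.Agent.LeechSimple.simple_hsSub, Cfsg.Agent.LeechSimple.card_hs⟩

theorem rhoX_inj : Function.Injective rhoX := by
  have hsimple : IsSimpleGroup stHS := isHS_stHS.1
  rw [← MonoidHom.ker_eq_bot_iff]
  rcases (MonoidHom.normal_ker rhoX).eq_bot_or_eq_top with h | h
  · exact h
  · exfalso
    -- all act trivially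
    have h1 : ∀ x : X100, x = pX := by
      intro x
      obtain ⟨g, hg⟩ := trans_X x
      have : g ∈ rhoX.ker := by rw [h]; exact Subgroup.mem_top g
      rw [MonoidHom.mem_ker] at this
      rw [← hg, ← rhoX_apply, this]
      rfl
    have h2 : Fintype.card X100 ≤ 1 := Fintype.card_le_one_iff.2 (fun a b => (h1 a).trans (h1 b).symm)
    rw [card_X100] at h2
    omega

/-- transfer to any graph with the same parameters -/
theorem hs_in_srg {V : Type*} [Fintype V] {G : SimpleGraph V} [DecidableRel G.Adj] (hG : G.IsSRGWith 100 22 0 6) :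
    ∃ f : stHS →* (G ≃g G), Function.Injective f ∧ ∀ x y : V, ∃ g : stHS, f g x = y := by
  obtain ⟨φ⟩ := Cfsg.Agent.S0430.result srg_100 hG
  let c : (Γ100 ≃g Γ100) →* (G ≃g G) :=
    { toFun := fun ψ => (φ.symm.trans ψ).trans φ
      map_one' := by
        ext1 x
        show φ (φ.symm x) = x
        exact φ.apply_symm_apply x
      map_mul' := by
        intro ψ χ
        ext1 x
        show φ (ψ (χ (φ.symm x))) = φ (ψ (φ.symm (φ (χ (φ.symm x)))))
        rw [φ.symm_apply_apply] }
  have hc : ∀ ψ x, c ψ x = φ (ψ (φ.symm x)) := fun _ _ => rfl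
  refine ⟨c.comp rhoX, ?_, ?_⟩
  · intro a b hab
    apply rhoX_inj
    ext1 x
    have := congrArg (fun ψ : G ≃g G => ψ (φ x)) hab
    simp only [MonoidHom.comp_apply, hc, φ.symm_apply_apply] at this
    exact φ.injective this
  · intro x y
    obtain ⟨g, hg⟩ := trans_X (φ.symm x)
    obtain ⟨h, hh⟩ := trans_X (φ.symm y)
    refine ⟨h * g⁻¹, ?_⟩
    rw [MonoidHom.comp_apply, hc, ← hg, rhoX_apply, act_mul, ← act_mul g⁻¹, inv_mul_cancel, act_one, hh, φ.apply_symm_apply]

end Cfsg.Agent.Stn
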