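import Cfsg.Agent.Stn.Graph

/-!
# Parameters of strongly regular graphs on 100 points of valency 22
-/

set_option autoImplicit false

namespace Cfsg.Agent.Stn

open Matrix

/-- the trace of an idempotent rational matrix is a natural number -/
theorem trace_idem {V : Type*} [Fintype V] [DecidableEq V] {E : Matrix V V ℚ} (hE : E * E = E) : ∃ n : ℕ, E.trace = n := by
  have h1 : IsIdempotentElem (Matrix.toLin' E) := by
    show Matrix.toLin' E * Matrix.toLin' E = Matrix.toLin' E
    rw [Module.End.mul_eq_comp, ← Matrix.toLin'_mul, hE]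
  have h2 := (LinearMap.IsIdempotentElem.isProj_range _ h1).trace
  rw [Matrix.trace_toLin'_eq] at h2
  exact ⟨_, h2⟩

section
variable {V : Type*} [Fintype V] [DecidableEq V] {A J : Matrix V V ℚ} (hAJ : A * J = (22 : ℚ) • J) (hJA : J * A = (22 : ℚ) • J)
  (hJJ : J * J = (100 : ℚ) • J)
include hAJ hJA hJJ

theorem sq_expand (a b c : ℚ) : (a • A + b • (1 : Matrix V V ℚ) + c • J) * (a • A + b • (1 : Matrix V V ℚ) + c • J) =
    (a ^ 2) • (A * A) + (2 * a * b) • A + (b ^ 2) • (1 : Matrix V V ℚ) + (44 * a * c + 2 * b * c + 100 * c ^ 2) • J := by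
  simp only [add_mul, mul_add, smul_mul_assoc, mul_smul_comm, Matrix.one_mul, Matrix.mul_one, hAJ, hJA, hJJ, smul_smul]
  module
end

theorem srg100_params {V : Type*} [Fintype V] {G : SimpleGraph V} [DecidableRel G.Adj] {l m : ℕ}
    (h : G.IsSRGWith 100 22 l m) : l = 0 ∧ m = 6 := by
  classical
  set A : Matrix V V ℚ := G.adjMatrix ℚ with hA
  set J : Matrix V V ℚ := Matrix.of (fun _ _ => (1 : ℚ)) with hJ
  have hC : Gᶜ.adjMatrix ℚ = J - 1 - A := by
    ext i j
    simp only [hJ, hA, SimpleGraph.adjMatrix_apply, Matrix.sub_apply, Matrix.of_apply, SimpleGraph.compl_adj, Matrix.one_apply]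
    by_cases hij : i = j
    · subst hij; simp
    · by_cases hadj : G.Adj i j <;> simp [hij, hadj]
  have hAJ : A * J = (22 : ℚ) • J := by
    ext i j
    rw [Matrix.mul_apply, Matrix.smul_apply, hJ]
    simp only [Matrix.of_apply, mul_one, smul_eq_mul]
    have h1 := G.adjMatrix_mulVec_const_apply_of_regular (α := ℚ) (a := 1) h.regular (v := i)
    simp only [Matrix.mulVec, dotProduct, Function.const_apply, mul_one] at h1
    exact h1
  have hJA : J * A = (22 : ℚ) • J := by
    have := congrArg Matrix.transpose hAJ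
    rw [Matrix.transpose_mul, Matrix.transpose_smul] at this
    have hAt : Aᵀ = A := G.transpose_adjMatrix
    have hJt : Jᵀ = J := by ext i j; rfl
    rwa [hAt, hJt] at this
  have hcard : (Fintype.card V : ℚ) = 100 := by rw [h.card]; norm_num
  have hJJ : J * J = (100 : ℚ) • J := by
    ext i j
    rw [Matrix.mul_apply, Matrix.smul_apply, hJ]
    simp only [Matrix.of_apply, mul_one, smul_eq_mul, Finset.sum_const, Finset.card_univ, nsmul_eq_mul]
    exact hcard
  have hsq : A * A = (22 - m : ℚ) • (1 : Matrix V V ℚ) + (l - m : ℚ) • A + (m : ℚ) • J := by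
    have h1 := h.matrix_eq (α := ℚ)
    rw [pow_two, hC] at h1
    rw [← hA] at h1
    rw [h1]
    simp only [← Nat.cast_smul_eq_nsmul ℚ]
    module
  have htA : A.trace = 0 := by rw [hA]; exact SimpleGraph.trace_adjMatrix ℚ G
  have htJ : J.trace = 100 := by
    rw [Matrix.trace, hJ]
    simp only [Matrix.diag_apply, Matrix.of_apply, Finset.sum_const, Finset.card_univ, nsmul_eq_mul, mul_one]
    exact hcard
  have ht1 : (1 : Matrix V V ℚ).trace = 100 := by rw [Matrix.trace_one]; exact hcard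
  -- the counting equation
  obtain ⟨v⟩ : Nonempty V := Fintype.card_pos_iff.1 (by rw [h.card]; norm_num)
  have hcount : 484 = 22 + 22 * l + 77 * m := by
    have h1 : A * A * J = (484 : ℚ) • J := by
      rw [Matrix.mul_assoc, hAJ, Matrix.mul_smul, hAJ, smul_smul]; norm_num
    rw [hsq, Matrix.add_mul, Matrix.add_mul, Matrix.smul_mul, Matrix.smul_mul, Matrix.smul_mul, Matrix.one_mul, hAJ, hJJ] at h1
    have h2 := congrFun (congrFun h1 v) v
    simp only [Matrix.add_apply, Matrix.smul_apply, hJ, Matrix.of_apply, smul_eq_mul, mul_one] at h2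
    have h3 : (484 : ℚ) = 22 + 22 * l + 77 * m := by linarith
    exact_mod_cast h3
  have hm : m ≤ 6 := by omega
  have hcases : (l = 0 ∧ m = 6) ∨ (l = 7 ∧ m = 4) ∨ (l = 14 ∧ m = 2) ∨ (l = 21 ∧ m = 0) := by
    interval_cases m <;> omega
  rcases hcases with h0 | ⟨rfl, rfl⟩ | ⟨rfl, rfl⟩ | ⟨rfl, rfl⟩
  · exact h0
  · exfalso
    have hE := sq_expand hAJ hJA hJJ (1 / 9) (1 / 3) (-1 / 36)
    rw [hsq] at hE
    have hE' : ((1 / 9 : ℚ) • A + (1 / 3 : ℚ) • (1 : Matrix V V ℚ) + (-1 / 36 : ℚ) • J) * ((1 / 9 : ℚ) • A + (1 / 3 : ℚ) • (1 : Matrix V V ℚ) + (-1 / 36 : ℚ) • J) =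
        (1 / 9 : ℚ) • A + (1 / 3 : ℚ) • (1 : Matrix V V ℚ) + (-1 / 36 : ℚ) • J := by
      rw [hE]
      push_cast
      module
    obtain ⟨n, hn⟩ := trace_idem hE'
    rw [Matrix.trace_add, Matrix.trace_add, Matrix.trace_smul, Matrix.trace_smul, Matrix.trace_smul, htA, ht1, htJ] at hn
    have h2 : (275 : ℚ) = 9 * n := by rw [← hn]; norm_num
    have h3 : 275 = 9 * n := by exact_mod_cast h2
    omega
  · exfalso
    have hE := sq_expand hAJ hJA hJJ 1 (-6) 0
    rw [hsq] at hE
    have h1 : (A - (6 : ℚ) • (1 : Matrix V V ℚ)) * (A - (6 : ℚ) • (1 : Matrix V V ℚ)) = (56 : ℚ) • (1 + (1 / 28 : ℚ) • J) := by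
      have e1 : A - (6 : ℚ) • (1 : Matrix V V ℚ) = (1 : ℚ) • A + (-6 : ℚ) • (1 : Matrix V V ℚ) + (0 : ℚ) • J := by module
      rw [e1, hE]
      push_cast
      module
    have h2 : (1 / 28 : ℚ) • J = Matrix.replicateCol Unit (fun _ : V => (1 / 28 : ℚ)) * Matrix.replicateRow Unit (fun _ : V => (1 : ℚ)) := by
      ext i j
      simp [hJ, Matrix.mul_apply]
    have h3 : Matrix.det (1 + (1 / 28 : ℚ) • J) = 32 / 7 := by
      rw [h2, Matrix.det_one_add_replicateCol_mul_replicateRow]
      simp only [dotProduct, one_mul, Finset.sum_const, Finset.card_univ, nsmul_eq_mul, hcard]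
      norm_num
    have h4 := congrArg Matrix.det h1
    rw [Matrix.det_mul, Matrix.det_smul, h.card, h3] at h4
    set d : ℚ := Matrix.det (A - (6 : ℚ) • (1 : Matrix V V ℚ)) with hd
    -- 14 would be a rational square
    have h5 : IsSquare (14 : ℚ) := by
      refine ⟨d / 56 ^ 50 * 7 / 4, ?_⟩
      have : d / 56 ^ 50 * 7 / 4 * (d / 56 ^ 50 * 7 / 4) = d * d * 49 / 16 / 56 ^ 100 := by
        field_simp
        ring
      rw [this, h4]
      norm_num
    have h6 : IsSquare (14 : ℕ) := by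
      rw [← Rat.isSquare_natCast_iff]
      exact_mod_cast h5
    obtain ⟨r, hr⟩ := h6
    have : r < 4 := by nlinarith
    interval_cases r <;> omega
  · exfalso
    have hE := sq_expand hAJ hJA hJJ (1 / 23) (1 / 23) 0
    rw [hsq] at hE
    have hE' : ((1 / 23 : ℚ) • A + (1 / 23 : ℚ) • (1 : Matrix V V ℚ) + (0 : ℚ) • J) * ((1 / 23 : ℚ) • A + (1 / 23 : ℚ) • (1 : Matrix V V ℚ) + (0 : ℚ) • J) =
        (1 / 23 : ℚ) • A + (1 / 23 : ℚ) • (1 : Matrix V V ℚ) + (0 : ℚ) • J := by
      rw [hE]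
      push_cast
      module
    obtain ⟨n, hn⟩ := trace_idem hE'
    rw [Matrix.trace_add, Matrix.trace_add, Matrix.trace_smul, Matrix.trace_smul, Matrix.trace_smul, htA, ht1, htJ] at hn
    have h2 : (100 : ℚ) = 23 * n := by rw [← hn]; norm_num
    have h3 : 100 = 23 * n := by exact_mod_cast h2
    omega

end Cfsg.Agent.Stn
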