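import Cfsg.Agent.Stn.HSGraph
import Cfsg.Agent.Stn.SRGInt
import Cfsg.Agent.Fus.MatM22
import Cfsg.Agent.H90.CoTrans

/-!
# Recognition of HS from its rank three action
-/

set_option autoImplicit false

namespace Cfsg.Agent.Stn

open Finset Cfsg

/-- uniqueness of subgroups of index two -/
theorem index_two_unique {A : Type*} [Group A] [Finite A] {H1 H2 : Subgroup A} (hs : IsSimpleGroup H2) (i1 : H1.index = 2)
    (i2 : H2.index = 2) (hc : 4 < Nat.card A) : H1 = H2 := by
  have hn : H1.Normal := Subgroup.normal_of_index_eq_two i1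
  have h1 := H1.index_mul_card
  have h2 := H2.index_mul_card
  rw [i1] at h1
  rw [i2] at h2
  have hN : (H1.subgroupOf H2).Normal := hn.subgroupOf H2
  have hle : H2 ≤ H1 := by
    rcases hN.eq_bot_or_eq_top with h | h
    · exfalso
      rw [Subgroup.subgroupOf_eq_bot] at h
      -- the product set is too large
      have h3 : Nat.card H1 * Nat.card H2 ≤ Nat.card A := by
        have hinj : Function.Injective (fun p : H1 × H2 => (p.1 : A) * (p.2 : A)) := Subgroup.mul_injective_of_disjoint h
        have := Nat.card_le_card_of_injective _ hinj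
        rwa [Nat.card_prod] at this
      have h4 : 2 < Nat.card H2 := by omega
      have h5 : Nat.card A < Nat.card H1 * Nat.card H2 := by
        rw [← h1]
        have h6 : 0 < Nat.card H1 := Nat.card_pos
        nlinarith
      omega
    · rw [Subgroup.subgroupOf_eq_top] at h
      exact h
  exact (Subgroup.eq_of_le_of_card_ge hle (by omega)).symm

section
variable {Ω : Type*} [Fintype Ω] [DecidableEq Ω] (hΩ : Fintype.card Ω = 100) (G : Subgroup (Equiv.Perm Ω))
  [MulAction.IsPretransitive G Ω] (a : Ω) (b c : Ω) (hb : (MulAction.orbit (MulAction.stabilizer G a) b).ncard = 22)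
  (hc : (MulAction.orbit (MulAction.stabilizer G a) c).ncard = 77)

/-- the orbital -/
def orbl (x y : Ω) : Prop := ∃ g : G, g • a = x ∧ g • b = y

omit [Fintype Ω] [DecidableEq Ω] [MulAction.IsPretransitive G Ω] in
theorem orbl_smul (g : G) (x y : Ω) : orbl G a b (g • x) (g • y) ↔ orbl G a b x y := by
  constructor
  · rintro ⟨h, h1, h2⟩
    exact ⟨g⁻¹ * h, by rw [mul_smul, h1, inv_smul_smul], by rw [mul_smul, h2, inv_smul_smul]⟩
  · rintro ⟨h, h1, h2⟩
    exact ⟨g * h, by rw [mul_smul, h1], by rw [mul_smul, h2]⟩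

omit [Fintype Ω] [DecidableEq Ω] [MulAction.IsPretransitive G Ω] in
theorem orbl_a (y : Ω) : orbl G a b a y ↔ y ∈ MulAction.orbit (MulAction.stabilizer G a) b := by
  constructor
  · rintro ⟨g, h1, h2⟩
    exact ⟨⟨g, h1⟩, h2⟩
  · rintro ⟨g, h2⟩
    exact ⟨g.1, g.2, h2⟩

include hΩ hb hc

omit [DecidableEq Ω] [MulAction.IsPretransitive G Ω] in
theorem orb_cases {x : Ω} (hx : x ≠ a) : x ∈ MulAction.orbit (MulAction.stabilizer G a) b ∨ x ∈ MulAction.orbit (MulAction.stabilizer G a) c := by
  classical
  have ha : MulAction.orbit (MulAction.stabilizer G a) a = {a} := by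
    ext y
    rw [Set.mem_singleton_iff]
    constructor
    · rintro ⟨g, rfl⟩; exact g.2
    · rintro rfl; exact MulAction.mem_orbit_self y
  have hab : a ∉ MulAction.orbit (MulAction.stabilizer G a) b := by
    intro h
    rw [← MulAction.orbit_eq_iff] at h
    rw [← h, ha, Set.ncard_singleton] at hb
    omega
  have hac : a ∉ MulAction.orbit (MulAction.stabilizer G a) c := by
    intro h
    rw [← MulAction.orbit_eq_iff] at h
    rw [← h, ha, Set.ncard_singleton] at hc
    omega
  have hbc : Disjoint (MulAction.orbit (MulAction.stabilizer G a) b) (MulAction.orbit (MulAction.stabilizer G a) c) := by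
    rcases MulAction.orbit.eq_or_disjoint (G := MulAction.stabilizer G a) b c with h | h
    · rw [h, hc] at hb; omega
    · exact h
  have h1 : (({a} : Set Ω) ∪ (MulAction.orbit (MulAction.stabilizer G a) b ∪ MulAction.orbit (MulAction.stabilizer G a) c)).ncard = 100 := by
    rw [Set.ncard_union_eq, Set.ncard_union_eq hbc, hb, hc, Set.ncard_singleton]
    rw [Set.disjoint_singleton_left, Set.mem_union, not_or]
    exact ⟨hab, hac⟩
  have h2 : ({a} : Set Ω) ∪ (MulAction.orbit (MulAction.stabilizer G a) b ∪ MulAction.orbit (MulAction.stabilizer G a) c) = Set.univ := by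
    apply Set.eq_of_subset_of_ncard_le (Set.subset_univ _)
    rw [h1, Set.ncard_univ, Nat.card_eq_fintype_card, hΩ]
  have h3 : x ∈ ({a} : Set Ω) ∪ (MulAction.orbit (MulAction.stabilizer G a) b ∪ MulAction.orbit (MulAction.stabilizer G a) c) := by
    rw [h2]; exact Set.mem_univ x
  rcases h3 with h3 | h3
  · exact absurd h3 hx
  · exact h3

omit [DecidableEq Ω] in
theorem orbl_symm' : orbl G a b b a := by
  classical
  -- out-degrees
  have hout : ∀ x : Ω, (univ.filter fun y => orbl G a b x y).card = 22 := by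
    intro x
    obtain ⟨g, rfl⟩ := MulAction.exists_smul_eq G a x
    have e1 : (univ.filter fun y => orbl G a b (g • a) y) = (univ.filter fun y => orbl G a b a y).image (g • ·) := by
      ext y
      simp only [mem_filter, mem_univ, true_and, mem_image]
      constructor
      · intro h
        refine ⟨g⁻¹ • y, ?_, smul_inv_smul g y⟩
        rw [← orbl_smul G a b g, smul_inv_smul]; exact h
      · rintro ⟨z, hz, rfl⟩
        rw [orbl_smul]; exact hz
    rw [e1, card_image_of_injective _ (MulAction.injective g), ← hb, ← Set.ncard_coe_finset]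
    congr 1
    ext y
    simp only [coe_filter, mem_univ, true_and, Set.mem_ofPred_eq]
    exact orbl_a G a b y
  have hin : ∀ x : Ω, (univ.filter fun y => orbl G a b y x).card = (univ.filter fun y => orbl G a b y a).card := by
    intro x
    obtain ⟨g, rfl⟩ := MulAction.exists_smul_eq G a x
    have e1 : (univ.filter fun y => orbl G a b y (g • a)) = (univ.filter fun y => orbl G a b y a).image (g • ·) := by
      ext y
      simp only [mem_filter, mem_univ, true_and, mem_image]
      constructor
      · intro h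
        refine ⟨g⁻¹ • y, ?_, smul_inv_smul g y⟩
        rw [← orbl_smul G a b g, smul_inv_smul]; exact h
      · rintro ⟨z, hz, rfl⟩
        rw [orbl_smul]; exact hz
    rw [e1, card_image_of_injective _ (MulAction.injective g)]
  have hdc := sum_card_bipartiteAbove_eq_sum_card_bipartiteBelow (s := (univ : Finset Ω)) (t := (univ : Finset Ω)) (orbl G a b)
  have h1 : ∀ x ∈ (univ : Finset Ω), (bipartiteAbove (orbl G a b) univ x).card = 22 := fun x _ => hout x
  have h2 : ∀ x ∈ (univ : Finset Ω), (bipartiteBelow (orbl G a b) univ x).card = (univ.filter fun y => orbl G a b y a).card := fun x _ => hin x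
  rw [sum_congr rfl h1, sum_congr rfl h2, sum_const, sum_const, card_univ, hΩ] at hdc
  have h22 : (univ.filter fun y => orbl G a b y a).card = 22 := by
    simp only [smul_eq_mul] at hdc; omega
  obtain ⟨x, hx⟩ : (univ.filter fun y => orbl G a b y a).Nonempty := card_pos.1 (by omega)
  rw [mem_filter] at hx
  -- its orbit
  have hsub : ∀ y ∈ MulAction.orbit (MulAction.stabilizer G a) x, orbl G a b y a := by
    rintro _ ⟨g, rfl⟩
    have h3 := (orbl_smul G a b g.1 x a).2 hx.2
    have h4 : g.1 • a = a := g.2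
    rw [h4] at h3
    exact h3
  have hle : (MulAction.orbit (MulAction.stabilizer G a) x).ncard ≤ 22 := by
    rw [← h22, ← Set.ncard_coe_finset]
    apply Set.ncard_le_ncard _ (Set.toFinite _)
    intro y hy
    rw [mem_coe, mem_filter]
    exact ⟨mem_univ _, hsub y hy⟩
  have hxa : x ≠ a := by
    rintro rfl
    have h3 := (orbl_a G x b x).1 hx.2
    rw [← MulAction.orbit_eq_iff] at h3
    have h4 : MulAction.orbit (MulAction.stabilizer G x) x = {x} := by
      ext y
      rw [Set.mem_singleton_iff]
      constructor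
      · rintro ⟨g, rfl⟩; exact g.2
      · rintro rfl; exact MulAction.mem_orbit_self y
    rw [← h3, h4, Set.ncard_singleton] at hb
    omega
  rcases orb_cases hΩ G a b c hb hc hxa with h3 | h3
  · rw [← MulAction.orbit_eq_iff] at h3
    apply hsub
    rw [h3]; exact MulAction.mem_orbit_self b
  · rw [← MulAction.orbit_eq_iff] at h3
    rw [h3, hc] at hle
    omega

omit [DecidableEq Ω] in
theorem orbl_symm {x y : Ω} (h : orbl G a b x y) : orbl G a b y x := by
  obtain ⟨g, rfl, rfl⟩ := h
  rw [orbl_smul]
  exact orbl_symm' hΩ G a b c hb hc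

omit [DecidableEq Ω] in
theorem not_orbl_self (x : Ω) : ¬ orbl G a b x x := by
  rintro ⟨g, h1, h2⟩
  have h3 : a = b := MulAction.injective g (h1.trans h2.symm)
  subst h3
  have h4 : MulAction.orbit (MulAction.stabilizer G a) a = {a} := by
    ext y
    rw [Set.mem_singleton_iff]
    constructor
    · rintro ⟨g, rfl⟩; exact g.2
    · rintro rfl; exact MulAction.mem_orbit_self y
  rw [h4, Set.ncard_singleton] at hb
  omega

/-- the graph of the orbital -/
def orbG : SimpleGraph Ω where
  Adj := orbl G a b
  symm := ⟨fun _ _ h => orbl_symm hΩ G a b c hb hc h⟩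
  loopless := ⟨fun x => not_orbl_self hΩ G a b c hb hc x⟩

omit hΩ hb hc in
omit [DecidableEq Ω] [Fintype Ω] [MulAction.IsPretransitive G Ω] in
/-- automorphisms -/
def orbAut (Γ : SimpleGraph Ω) (hadj : ∀ x y, Γ.Adj x y ↔ orbl G a b x y) : G →* (Γ ≃g Γ) where
  toFun g := ⟨MulAction.toPerm g, by
    intro x y
    rw [hadj, hadj]
    exact orbl_smul G a b g x y⟩
  map_one' := by ext1 x; exact one_smul G x
  map_mul' g h := by ext1 x; exact mul_smul g h x

theorem orbG_srg (Γ : SimpleGraph Ω) [DecidableRel Γ.Adj] (hadj : ∀ x y, Γ.Adj x y ↔ orbl G a b x y) : Γ.IsSRGWith 100 22 0 6 := by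
  have hcn : ∀ x y : Ω, Fintype.card (Γ.commonNeighbors x y) = (nb Γ x ∩ nb Γ y).card := by
    intro x y
    rw [← Set.toFinset_card]
    congr 1
    ext z
    rw [Set.mem_toFinset, SimpleGraph.mem_commonNeighbors, mem_inter, mem_nb, mem_nb]
  have happ : ∀ (g : G) (x : Ω), orbAut G a b Γ hadj g x = g • x := fun _ _ => rfl
  have hnba : (nb Γ a).card = 22 := by
    rw [← hb, ← Set.ncard_coe_finset]
    congr 1
    ext y
    rw [mem_coe, mem_nb, hadj, orbl_a]
  have hreg : ∀ x, (nb Γ x).card = 22 := by
    intro x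
    obtain ⟨g, rfl⟩ := MulAction.exists_smul_eq G a x
    rw [← hnba, ← nb_map_card (orbAut G a b Γ hadj g) a]
    rfl
  have hsrg : Γ.IsSRGWith 100 22 (nb Γ a ∩ nb Γ b).card (nb Γ a ∩ nb Γ c).card := by
    refine ⟨hΩ, ?_, ?_, ?_⟩
    · intro x
      rw [← hreg x, ← SimpleGraph.card_neighborFinset_eq_degree]
      congr 1
      ext y
      rw [mem_nb, SimpleGraph.mem_neighborFinset]
    · intro x y hxy
      obtain ⟨g, rfl, rfl⟩ := (hadj x y).1 hxy
      rw [hcn]
      exact nb_inter_map_card (orbAut G a b Γ hadj g) a b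
    · intro x y hxy hadj'
      obtain ⟨g, rfl⟩ := MulAction.exists_smul_eq G a x
      have h1 : g⁻¹ • y ≠ a := by
        intro h; apply hxy; rw [← h, smul_inv_smul]
      have h2 : g⁻¹ • y ∉ MulAction.orbit (MulAction.stabilizer G a) b := by
        intro h
        apply hadj'
        rw [← orbl_a, ← orbl_smul G a b g, smul_inv_smul] at h
        exact (hadj _ _).2 h
      rcases orb_cases hΩ G a b c hb hc h1 with h3 | h3
      · exact absurd h3 h2
      · obtain ⟨k, hk⟩ := h3
        have hk' : k.1 • c = g⁻¹ • y := hk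
        have hka : k.1 • a = a := k.2
        have e1 : (g * k.1) • a = g • a := by rw [mul_smul, hka]
        have e2 : (g * k.1) • c = y := by rw [mul_smul, hk', smul_inv_smul]
        rw [hcn, ← nb_inter_map_card (orbAut G a b Γ hadj (g * k.1)) a c]
        rw [happ, happ, e1, e2]
  obtain ⟨h1, h2⟩ := srg100_params hsrg
  rw [h1, h2] at hsrg
  exact hsrg

theorem hs_recog (e : MulAction.stabilizer G a ≃* Spor.M22) : Spor.IsoHS G := by
  classical
  obtain ⟨Γ, hadj⟩ : ∃ Γ : SimpleGraph Ω, ∀ x y, Γ.Adj x y ↔ orbl G a b x y := ⟨orbG hΩ G a b c hb hc, fun _ _ => Iff.rfl⟩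
  have hsrg : Γ.IsSRGWith 100 22 0 6 := orbG_srg hΩ G a b c hb hc Γ hadj
  -- orders
  have hcA : Nat.card (Γ ≃g Γ) = 88704000 := by
    obtain ⟨c1, s1⟩ := srg_steiner hsrg a
    obtain ⟨φ, -⟩ := srg_iso hsrg a
    rw [← card_pbg_aut c1 s1]
    apply Nat.card_congr
    exact
      { toFun := fun ψ => (φ.trans ψ).trans φ.symm
        invFun := fun ψ => (φ.symm.trans ψ).trans φ
        left_inv := fun ψ => by ext1 x; simp [RelIso.trans_apply]
        right_inv := fun ψ => by ext1 x; simp [RelIso.trans_apply] }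
  have hfin : Finite (Γ ≃g Γ) := Nat.finite_of_card_ne_zero (by rw [hcA]; norm_num)
  have hcG : Nat.card G = 44352000 := by
    have h1 := (MulAction.stabilizer G a).index_mul_card
    rw [MulAction.index_stabilizer, MulAction.orbit_eq_univ, Set.ncard_univ, Nat.card_eq_fintype_card, hΩ,
      Nat.card_congr e.toEquiv, Cfsg.Agent.Fus.Mat.card_M22] at h1
    rw [← h1]
  have hj : Function.Injective (orbAut G a b Γ hadj) := by
    intro g h hgh
    apply Subtype.ext
    ext1 x
    exact congrArg (fun ψ : Γ ≃g Γ => ψ x) hgh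
  obtain ⟨f, hf, -⟩ := hs_in_srg hsrg
  have i1 : (orbAut G a b Γ hadj).range.index = 2 := by
    have h1 := (orbAut G a b Γ hadj).range.index_mul_card
    rw [hcA, ← Nat.card_congr (MonoidHom.ofInjective hj).toEquiv, hcG] at h1
    omega
  have i2 : f.range.index = 2 := by
    have h1 := f.range.index_mul_card
    rw [hcA, ← Nat.card_congr (MonoidHom.ofInjective hf).toEquiv, isHS_stHS.2] at h1
    omega
  have hs : IsSimpleGroup f.range := (isM24_of _ (MonoidHom.ofInjective hf).symm isHS_stHS.1 isHS_stHS.2).1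
  have heq := index_two_unique hs i1 i2 (by rw [hcA]; norm_num)
  exact ⟨(((MonoidHom.ofInjective hj).trans (MulEquiv.subgroupCongr heq)).trans (MonoidHom.ofInjective hf).symm).trans Cfsg.Agent.H90.Co.isoHS⟩

end

end Cfsg.Agent.Stn
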